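import Mathlib

/-!
# S2452, `3D4(q)`, line B, step (4): the numbers (helper877)
-/

set_option autoImplicit false

namespace Cfsg.Agent.H877.TW

/-- `e p ^ m ≡ 1` modulo `q ^ 4 - q ^ 2 + 1`, `q = p ^ f`, `m ≤ 24 f`: the five values -/
theorem five_values {p f q : ℕ} (hp : 2 ≤ p) (hf : 0 < f) (hq : q = p ^ f) {N : ℤ} (hN : N = (q : ℤ) ^ 4 - q ^ 2 + 1)
    {m : ℕ} (hm : m ≤ 24 * f) {e : ℤ} (he : e = 1 ∨ e = -1) (h : N ∣ e * (p : ℤ) ^ m - 1) :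
    e * (p : ℤ) ^ m = 1 ∨ e * (p : ℤ) ^ m = -(q : ℤ) ^ 6 ∨ e * (p : ℤ) ^ m = (q : ℤ) ^ 12 ∨
      e * (p : ℤ) ^ m = -(q : ℤ) ^ 18 ∨ e * (p : ℤ) ^ m = (q : ℤ) ^ 24 := by
  have hq2 : 2 ≤ q := by
    rw [hq]
    calc 2 ≤ p := hp
      _ = p ^ 1 := (pow_one p).symm
      _ ≤ p ^ f := Nat.pow_le_pow_right (by omega) hf
  have hqZ : (2 : ℤ) ≤ q := by exact_mod_cast hq2
  have hpZ : (2 : ℤ) ≤ p := by exact_mod_cast hp
  have hqp : (q : ℤ) = (p : ℤ) ^ f := by exact_mod_cast congrArg (Nat.cast : ℕ → ℤ) hq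
  have hN3 : (q : ℤ) ^ 3 + 1 < N := by
    rw [hN]
    nlinarith [mul_pos (show (0 : ℤ) < q by linarith) (show (0 : ℤ) < q by linarith), sq_nonneg ((q : ℤ) - 1),
      mul_nonneg (show (0 : ℤ) ≤ (q : ℤ) ^ 2 by positivity) (show (0 : ℤ) ≤ (q : ℤ) ^ 2 - q - 1 by nlinarith)]
  have hN0 : 0 < N := by
    have : (0 : ℤ) ≤ (q : ℤ) ^ 3 := by positivity
    linarith
  -- `q ^ 6 ≡ -1`
  have h6 : N ∣ (q : ℤ) ^ 6 + 1 := ⟨(q : ℤ) ^ 2 + 1, by rw [hN]; ring⟩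
  have h6' : N ∣ (p : ℤ) ^ (6 * f) + 1 := by
    have h1 : (p : ℤ) ^ (6 * f) = (q : ℤ) ^ 6 := by rw [hqp, ← pow_mul, mul_comm]
    rwa [h1]
  -- small exponents
  have small : ∀ (k : ℕ) (c : ℤ), k ≤ 3 * f → (c = 1 ∨ c = -1) → N ∣ c * (p : ℤ) ^ k - 1 → k = 0 ∧ c = 1 := by
    intro k c hk hc hd
    have h1 : (p : ℤ) ^ k ≤ (q : ℤ) ^ 3 := by
      rw [hqp, ← pow_mul, mul_comm f 3]
      exact pow_le_pow_right₀ (by linarith) hk
    have h2 : (1 : ℤ) ≤ (p : ℤ) ^ k := one_le_pow₀ (by linarith)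
    rcases hc with rfl | rfl
    · have h3 : (1 : ℤ) * (p : ℤ) ^ k - 1 = 0 := by
        apply Int.eq_zero_of_abs_lt_dvd hd
        rw [abs_of_nonneg (by linarith)]
        linarith
      refine ⟨?_, rfl⟩
      by_contra hk0
      have h4 : (p : ℤ) ^ 1 ≤ (p : ℤ) ^ k := pow_le_pow_right₀ (by linarith) (by omega)
      rw [pow_one] at h4
      linarith
    · exfalso
      have h3 : (-1 : ℤ) * (p : ℤ) ^ k - 1 = 0 := by
        apply Int.eq_zero_of_abs_lt_dvd hd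
        rw [abs_of_nonpos (by linarith)]
        linarith
      linarith
  -- exponents below `6 f`
  have mid : ∀ (k : ℕ) (c : ℤ), k < 6 * f → (c = 1 ∨ c = -1) → N ∣ c * (p : ℤ) ^ k - 1 → k = 0 ∧ c = 1 := by
    intro k c hk hc hd
    by_cases hk3 : k ≤ 3 * f
    · exact small k c hk3 hc hd
    exfalso
    obtain ⟨j, hj⟩ : ∃ j, 6 * f = k + j := ⟨6 * f - k, by omega⟩
    have h1 : N ∣ (-c) * (p : ℤ) ^ j - 1 := by
      have h2 : N ∣ (c * (p : ℤ) ^ k - 1) * (-c * (p : ℤ) ^ j) := Dvd.dvd.mul_right hd _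
      have h3 : N ∣ (p : ℤ) ^ (6 * f) + 1 := h6'
      have hcc : c * c = 1 := by rcases hc with rfl | rfl <;> norm_num
      have h4 : (-c) * (p : ℤ) ^ j - 1 = -((c * (p : ℤ) ^ k - 1) * (-c * (p : ℤ) ^ j)) - ((p : ℤ) ^ (6 * f) + 1) := by
        rw [hj, pow_add]
        linear_combination (-(p : ℤ) ^ k * (p : ℤ) ^ j) * hcc
      rw [h4]
      exact dvd_sub (by rwa [dvd_neg]) h3
    have h2 := small j (-c) (by omega) (by rcases hc with rfl | rfl <;> simp) h1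
    omega
  -- the division
  have step : ∀ (k : ℕ) (c : ℤ), N ∣ c * (p : ℤ) ^ (k + 6 * f) - 1 → N ∣ (-c) * (p : ℤ) ^ k - 1 := by
    intro k c hd
    have h4 : (-c) * (p : ℤ) ^ k - 1 = (c * (p : ℤ) ^ (k + 6 * f) - 1) - c * (p : ℤ) ^ k * ((p : ℤ) ^ (6 * f) + 1) := by
      rw [pow_add]
      ring
    rw [h4]
    exact dvd_sub hd (Dvd.dvd.mul_left h6' _)
  have hqn : ∀ n : ℕ, (p : ℤ) ^ (n * f) = (q : ℤ) ^ n := fun n => by rw [hqp, ← pow_mul, mul_comm]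
  rcases lt_or_ge m (6 * f) with h1 | h1
  · obtain ⟨rfl, rfl⟩ := mid m e h1 he h
    left
    simp
  obtain ⟨m1, rfl⟩ : ∃ k, m = k + 6 * f := ⟨m - 6 * f, by omega⟩
  have g1 := step m1 e h
  have he1 : (-e = 1 ∨ -e = -1) := by rcases he with rfl | rfl <;> simp
  rcases lt_or_ge m1 (6 * f) with h2 | h2
  · obtain ⟨rfl, h3⟩ := mid m1 (-e) h2 he1 g1
    right; left
    have h4 : e = -1 := by linarith
    rw [h4, zero_add, hqn]
    ring
  obtain ⟨m2, rfl⟩ : ∃ k, m1 = k + 6 * f := ⟨m1 - 6 * f, by omega⟩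
  have g2 := step m2 (-e) g1
  rw [neg_neg] at g2
  rcases lt_or_ge m2 (6 * f) with h3 | h3
  · obtain ⟨rfl, rfl⟩ := mid m2 e h3 he g2
    right; right; left
    rw [show 0 + 6 * f + 6 * f = 12 * f by ring, hqn]
    ring
  obtain ⟨m3, rfl⟩ : ∃ k, m2 = k + 6 * f := ⟨m2 - 6 * f, by omega⟩
  have g3 := step m3 e g2
  rcases lt_or_ge m3 (6 * f) with h4 | h4
  · obtain ⟨rfl, h5⟩ := mid m3 (-e) h4 he1 g3
    right; right; right; left
    have h6 : e = -1 := by linarith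
    rw [h6, show 0 + 6 * f + 6 * f + 6 * f = 18 * f by ring, hqn]
    ring
  obtain ⟨m4, rfl⟩ : ∃ k, m3 = k + 6 * f := ⟨m3 - 6 * f, by omega⟩
  have g4 := step m4 (-e) g3
  rw [neg_neg] at g4
  have h5 : m4 = 0 := by omega
  subst h5
  have h6 : e = 1 := by
    rcases he with rfl | rfl
    · rfl
    · exfalso
      have := mid 0 (-1) (by omega) (Or.inr rfl) g4
      omega
  right; right; right; right
  rw [h6, show 0 + 6 * f + 6 * f + 6 * f + 6 * f = 24 * f by ring, hqn]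
  ring

theorem sgn1 {X Y D b : ℤ} (hX : 0 < X) (hY : Y ≤ 0) (hD : 0 < D) (hb : 0 < b) (h : X * D = Y * b) : False := by
  have h1 : 0 < X * D := mul_pos hX hD
  have h2 : Y * b ≤ 0 := mul_nonpos_of_nonpos_of_nonneg hY hb.le
  linarith

theorem sgn2 {X Y D b : ℤ} (hX : X < 0) (hY : 0 ≤ Y) (hD : 0 < D) (hb : 0 < b) (h : X * D = Y * b) : False := by
  have h1 : X * D < 0 := mul_neg_of_neg_of_pos hX hD
  have h2 : 0 ≤ Y * b := mul_nonneg hY hb.le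
  linarith

/-- no pair of values -/
theorem no_pair {q : ℕ} (hq : 2 ≤ q) {a b e1 e2 : ℤ} (hb : 1 ≤ b)
    (h1 : e1 = 1 ∨ e1 = -(q : ℤ) ^ 6 ∨ e1 = (q : ℤ) ^ 12 ∨ e1 = -(q : ℤ) ^ 18 ∨ e1 = (q : ℤ) ^ 24)
    (h2 : e2 = 1 ∨ e2 = -(q : ℤ) ^ 6 ∨ e2 = (q : ℤ) ^ 12 ∨ e2 = -(q : ℤ) ^ 18 ∨ e2 = (q : ℤ) ^ 24)
    (hab : a - b = (q : ℤ) * (q ^ 2 - 1) * (q ^ 8 + q ^ 4 + 1))
    (hle : a ≤ ((q : ℤ) ^ 8 + q ^ 4 + 1) * (q ^ 3 + 1))
    (h : e1 * a - e2 * b = -(q : ℤ) ^ 12 * (a - b)) : False := by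
  have hqZ : (2 : ℤ) ≤ q := by exact_mod_cast hq
  obtain ⟨D, hD⟩ : ∃ D : ℤ, D = (q : ℤ) * (q ^ 2 - 1) * (q ^ 8 + q ^ 4 + 1) := ⟨_, rfl⟩
  obtain ⟨z, hz⟩ : ∃ z : ℤ, z = (q : ℤ) ^ 6 := ⟨_, rfl⟩
  rw [← hD] at hab
  have ha : a = b + D := by linarith
  have e12 : (q : ℤ) ^ 12 = z ^ 2 := by rw [hz]; ring
  have e18 : (q : ℤ) ^ 18 = z ^ 3 := by rw [hz]; ring
  have e24 : (q : ℤ) ^ 24 = z ^ 4 := by rw [hz]; ring
  have hz64 : 64 ≤ z := by
    rw [hz]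
    calc (64 : ℤ) = 2 ^ 6 := by norm_num
      _ ≤ (q : ℤ) ^ 6 := by gcongr
  have hq2 : (4 : ℤ) ≤ (q : ℤ) ^ 2 := by nlinarith
  have hq8 : (0 : ℤ) < (q : ℤ) ^ 8 + q ^ 4 + 1 := by positivity
  have hD0 : 0 < D := by
    rw [hD]
    have : (0 : ℤ) < (q : ℤ) ^ 2 - 1 := by linarith
    positivity
  have hD1 : 2 * D < z ^ 2 - 1 := by
    have h3 : z ^ 2 - 1 - q * D = q ^ 10 - q ^ 8 + (q ^ 6 - q ^ 4 + q ^ 2 - 1) := by
      rw [hD, hz]; ring
    have h4 : (0 : ℤ) < q ^ 10 - q ^ 8 := by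
      have : (q : ℤ) ^ 10 - q ^ 8 = q ^ 8 * (q ^ 2 - 1) := by ring
      rw [this]
      have : (0 : ℤ) < (q : ℤ) ^ 2 - 1 := by linarith
      positivity
    have h5 : (0 : ℤ) < q ^ 6 - q ^ 4 + q ^ 2 - 1 := by
      have : (q : ℤ) ^ 6 - q ^ 4 + q ^ 2 - 1 = (q ^ 2 - 1) * (q ^ 4 + 1) := by ring
      rw [this]
      have : (0 : ℤ) < (q : ℤ) ^ 2 - 1 := by linarith
      positivity
    have h6 : 2 * D ≤ q * D := by nlinarith
    linarith
  have hD2 : a < 2 * D := by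
    have h3 : ((q : ℤ) ^ 8 + q ^ 4 + 1) * (q ^ 3 + 1) < 2 * D := by
      have h4 : (q : ℤ) ^ 3 + 1 < 2 * (q * (q ^ 2 - 1)) := by nlinarith
      have h5 := mul_lt_mul_of_pos_left h4 hq8
      rw [hD]
      calc _ < ((q : ℤ) ^ 8 + q ^ 4 + 1) * (2 * (q * (q ^ 2 - 1))) := h5
        _ = _ := by ring
    linarith
  have hb0 : 0 < b := by linarith
  have hbD : b < D := by linarith
  have key : (e1 + z ^ 2) * D = (e2 - e1) * b := by
    rw [e12] at h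
    rw [ha] at h
    linear_combination h
  rw [e12, e18, e24, ← hz] at h1 h2
  have hz2 : 64 * z ≤ z ^ 2 := by nlinarith
  have hz3 : 64 * z ^ 2 ≤ z ^ 3 := by nlinarith [mul_nonneg (show (0 : ℤ) ≤ z - 64 by linarith) (sq_nonneg z)]
  have hz4 : 64 * z ^ 3 ≤ z ^ 4 := by
    nlinarith [mul_nonneg (show (0 : ℤ) ≤ z - 64 by linarith) (show (0 : ℤ) ≤ z ^ 3 by positivity)]
  clear h hab hle ha e12 e18 e24
  rcases h1 with rfl | rfl | rfl | rfl | rfl <;> rcases h2 with rfl | rfl | rfl | rfl | rfl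
  · exact sgn1 (by linarith) (by linarith) hD0 hb0 key
  · exact sgn1 (by linarith) (by linarith) hD0 hb0 key
  · -- `(1 + z²) D = (z² - 1) b`
    have : (z ^ 2 - 1) * b < (z ^ 2 - 1) * D := mul_lt_mul_of_pos_left hbD (by linarith)
    nlinarith
  · exact sgn1 (by linarith) (by linarith) hD0 hb0 key
  · -- `(1 + z²) D = (z⁴ - 1) b`
    have h3 : (1 + z ^ 2) * (D - (z ^ 2 - 1) * b) = 0 := by linear_combination key
    have h4 : D - (z ^ 2 - 1) * b = 0 := by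
      rcases mul_eq_zero.1 h3 with h | h
      · nlinarith
      · exact h
    nlinarith
  · -- `(z² - z) D = (1 + z) b`
    have : (1 + z) * b < (1 + z) * D := mul_lt_mul_of_pos_left hbD (by linarith)
    nlinarith
  · exact sgn1 (by linarith) (by linarith) hD0 hb0 key
  · -- `(z² - z) D = (z² + z) b`
    have h3 : z * ((z - 1) * D - (z + 1) * b) = 0 := by linear_combination key
    have h4 : (z - 1) * D = (z + 1) * b := by
      rcases mul_eq_zero.1 h3 with h | h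
      · linarith
      · linarith
    have h5 : ((q : ℤ) ^ 2 + 1) ∣ 12 * (q : ℤ) := by
      refine ⟨((q : ℤ) ^ 4 - q ^ 2 + 1) * b - (-11 * (q : ℤ) + 10 * (q : ℤ) ^ 3 + -9 * (q : ℤ) ^ 5 + 7 * (q : ℤ) ^ 7 +
        -5 * (q : ℤ) ^ 9 + 3 * (q : ℤ) ^ 11 + -2 * (q : ℤ) ^ 13 + (q : ℤ) ^ 15), ?_⟩
      have h6 : (z - 1) * D = (z + 1) * b := h4
      rw [hD, hz] at h6
      linear_combination h6
    have h7 : ((q : ℤ) ^ 2 + 1) ∣ 12 := by
      have h8 : (12 : ℤ) = 12 * ((q : ℤ) ^ 2 + 1) - (12 * (q : ℤ)) * q := by ring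
      rw [h8]
      exact dvd_sub (dvd_mul_left _ _) (Dvd.dvd.mul_right h5 _)
    have h8 := Int.le_of_dvd (by norm_num) h7
    have h9 : q ≤ 3 := by
      by_contra hcon
      have : (4 : ℤ) ≤ q := by exact_mod_cast (show 4 ≤ q by omega)
      nlinarith
    have h10 : q = 2 ∨ q = 3 := by omega
    rcases h10 with h10 | h10
    · rw [h10] at h7
      norm_num at h7
    · rw [h10] at h7
      norm_num at h7
  · exact sgn1 (by linarith) (by linarith) hD0 hb0 key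
  · -- `(z² - z) D = (z⁴ + z) b`
    have h3 : (z ^ 2 - z) * D < (z ^ 4 + z) * 1 := by
      have h4 : (z ^ 2 - z) * D ≤ (z ^ 2 - z) * z ^ 2 := mul_le_mul_of_nonneg_left (by linarith) (by linarith)
      nlinarith
    have h4 : (z ^ 4 + z) * 1 ≤ (z ^ 4 + z) * b := mul_le_mul_of_nonneg_left hb (by linarith)
    linarith
  · exact sgn1 (by linarith) (by linarith) hD0 hb0 key
  · exact sgn1 (by linarith) (by linarith) hD0 hb0 key
  · exact sgn1 (by linarith) (by linarith) hD0 hb0 key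
  · exact sgn1 (by linarith) (by linarith) hD0 hb0 key
  · -- `2 z² D = (z⁴ - z²) b`
    have h3 : z ^ 2 * (2 * D - (z ^ 2 - 1) * b) = 0 := by linear_combination key
    have h4 : 2 * D - (z ^ 2 - 1) * b = 0 := by
      rcases mul_eq_zero.1 h3 with h | h
      · nlinarith
      · exact h
    have h5 : (z ^ 2 - 1) * 1 ≤ (z ^ 2 - 1) * b := mul_le_mul_of_nonneg_left hb (by linarith)
    linarith
  · exact sgn2 (by linarith) (by linarith) hD0 hb0 key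
  · exact sgn2 (by linarith) (by linarith) hD0 hb0 key
  · exact sgn2 (by linarith) (by linarith) hD0 hb0 key
  · exact sgn2 (by linarith) (by linarith) hD0 hb0 key
  · exact sgn2 (by linarith) (by linarith) hD0 hb0 key
  · exact sgn1 (by linarith) (by linarith) hD0 hb0 key
  · exact sgn1 (by linarith) (by linarith) hD0 hb0 key
  · exact sgn1 (by linarith) (by linarith) hD0 hb0 key
  · exact sgn1 (by linarith) (by linarith) hD0 hb0 key
  · exact sgn1 (by linarith) (by linarith) hD0 hb0 key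

end Cfsg.Agent.H877.TW
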