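import Cfsg.Agent.H727.TC.Kaw
import Cfsg.Agent.H519.TDU.Main
import Cfsg.Agent.H877.TW.KillNum

/-!
# S2452, `3D4(q)`, line B, step (4): the case `s₁(x) = s₂(x) = -1` is impossible (helper877)
-/

set_option autoImplicit false

open Cfsg Subgroup

namespace Cfsg.Agent.H877.TW

open Cfsg.Agent.Characters Cfsg.Agent.Characters.Core Cfsg.Agent.H686.CharKit
  Cfsg.Agent.Characters.CCBasic Cfsg.Agent.H730.OZ

universe u

/-- the sum of an invariant function over a free action -/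
theorem sum_free {A S : Type*} [Group A] [Finite A] [Fintype S] [MulAction A S]
    (hfree : ∀ (a : A) (s : S), a • s = s → a = 1) (f : S → ℂ) (hf : ∀ (a : A) (s : S), f (a • s) = f s)
    (hint : ∀ s, IsIntegral ℤ (f s)) : ∃ α : ℂ, IsIntegral ℤ α ∧ ∑ s, f s = (Nat.card A : ℂ) * α := by
  classical
  have : Fintype (MulAction.orbitRel.Quotient A S) := Fintype.ofFinite _
  refine ⟨∑ ω : MulAction.orbitRel.Quotient A S, f ω.out, IsIntegral.sum _ fun ω _ => hint _, ?_⟩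
  rw [Finset.mul_sum, ← Finset.sum_fiberwise (s := (Finset.univ : Finset S))
    (g := fun s => (Quotient.mk'' s : MulAction.orbitRel.Quotient A S))]
  apply Finset.sum_congr rfl
  intro ω _
  have hmem : ∀ s ∈ Finset.univ.filter (fun s : S => (Quotient.mk'' s : MulAction.orbitRel.Quotient A S) = ω),
      s ∈ MulAction.orbit A ω.out := by
    intro s hs
    rw [Finset.mem_filter] at hs
    have h1 : (Quotient.mk'' s : MulAction.orbitRel.Quotient A S) = Quotient.mk'' ω.out := by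
      rw [hs.2, Quotient.out_eq']
    have h2 := Quotient.eq''.1 h1
    exact h2
  rw [Finset.sum_congr rfl (g := fun _ => f ω.out) (fun s hs => by
    obtain ⟨a, rfl⟩ := hmem s hs
    exact hf a _), Finset.sum_const, nsmul_eq_mul]
  congr 1
  have h3 : (Finset.univ.filter (fun s : S => (Quotient.mk'' s : MulAction.orbitRel.Quotient A S) = ω)).card =
      Nat.card A := by
    rw [← Nat.card_congr (MulAction.orbitEquivQuotientStabilizer A ω.out |>.trans (by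
      have h4 : MulAction.stabilizer A ω.out = ⊥ := by
        rw [Subgroup.eq_bot_iff_forall]
        intro a ha
        exact hfree a _ ha
      rw [h4]
      exact (QuotientGroup.quotientBot (G := A)).toEquiv))]
    rw [Nat.card_eq_card_toFinset]
    congr 1
    ext s
    rw [Set.mem_toFinset]
    constructor
    · exact hmem s
    · intro hs
      rw [Finset.mem_filter]
      refine ⟨Finset.mem_univ _, ?_⟩
      have h5 : (Quotient.mk'' s : MulAction.orbitRel.Quotient A S) = Quotient.mk'' ω.out := Quotient.sound' hs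
      rw [h5, Quotient.out_eq']
  exact_mod_cast h3

variable {G : Type u} [Group G]

theorem conj_mem_pSet {p : ℕ} (g u : G) : g * u * g⁻¹ ∈ pSet p G ↔ u ∈ pSet p G := by
  unfold pSet
  rw [Set.mem_setOf_eq, Set.mem_setOf_eq]
  have : orderOf (g * u * g⁻¹) = orderOf u := (MulAut.conj g).orderOf_eq u
  rw [this]

theorem one_mem_pSet {p : ℕ} : (1 : G) ∈ pSet p G := ⟨0, by simp⟩

theorem finsum_eq [Fintype G] [DecidableEq G] {p : ℕ} [DecidablePred (· ∈ pSet p G)] (F : G → ℂ) :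
    ∑ᶠ u ∈ pSet p G, F u = ∑ u ∈ Finset.univ.filter (· ∈ pSet p G), F u := by
  rw [finsum_mem_eq_finite_toFinset_sum _ (Set.toFinite _)]
  apply Finset.sum_congr _ (fun _ _ => rfl)
  ext u
  simp

/-- **The congruence** modulo the order of a CC subgroup. -/
theorem cong_cc [Finite G] {p : ℕ} (hp : p.Prime) {A : Subgroup G} (hA : IsCC A) (hpA : ¬ p ∣ Nat.card A)
    (χ : IrrCharacter G) {m : ℕ} {e : ℤ}
    (hs : ∑ᶠ u ∈ pSet p G, (χ : G → ℂ) u = (e : ℂ) * (p : ℂ) ^ m * (χ : G → ℂ) 1) :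
    (Nat.card A : ℤ) ∣ (e * p ^ m - 1) * (charDegree (χ : G → ℂ) : ℤ) := by
  classical
  have := Fintype.ofFinite G
  obtain ⟨S, hS⟩ : ∃ S : Finset G, S = Finset.univ.filter (fun u => u ∈ pSet p G ∧ u ≠ 1) := ⟨_, rfl⟩
  have hmS : ∀ u, u ∈ S ↔ u ∈ pSet p G ∧ u ≠ 1 := fun u => by rw [hS]; simp
  let act : MulAction A S :=
    { smul := fun a s => ⟨a * s * (a : G)⁻¹, by
        rw [hmS]
        refine ⟨(conj_mem_pSet _ _).2 ((hmS _).1 s.2).1, fun h => ((hmS _).1 s.2).2 ?_⟩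
        exact conj_eq_one_iff.1 h⟩
      one_smul := fun s => Subtype.ext (show (1 : G) * s * (1 : G)⁻¹ = s by simp)
      mul_smul := fun a b s => Subtype.ext (show ((a : G) * b) * s * ((a : G) * b)⁻¹ = a * (b * s * (b : G)⁻¹) * (a : G)⁻¹ by
        group) }
  have hfree : ∀ (a : A) (s : S), a • s = s → a = 1 := by
    intro a s h
    by_contra ha
    have ha1 : (a : G) ≠ 1 := fun h => ha (Subtype.ext h)
    have h1 : (a : G) * s * (a : G)⁻¹ = s := congrArg Subtype.val h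
    have h2 : (s : G) ∈ centralizer ({(a : G)} : Set G) := by
      rw [mem_centralizer_singleton_iff]
      exact (mul_inv_eq_iff_eq_mul.1 h1).symm
    rw [hA.cent a a.2 ha1] at h2
    obtain ⟨⟨k, hk⟩, h3⟩ := (hmS _).1 s.2
    have h4 : orderOf (s : G) ∣ Nat.card A := by
      have := orderOf_dvd_natCard (⟨s, h2⟩ : A)
      rwa [← Subgroup.orderOf_coe] at this
    rcases Nat.eq_zero_or_pos k with rfl | hk0
    · rw [pow_zero] at hk
      exact h3 (orderOf_eq_one_iff.1 hk)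
    · apply hpA
      rw [hk] at h4
      exact (dvd_pow_self p hk0.ne').trans h4
  obtain ⟨α, hα, hsum⟩ := sum_free hfree (fun s : S => (χ : G → ℂ) s) (fun a s => by
    show (χ : G → ℂ) (a * s * (a : G)⁻¹) = _
    obtain ⟨n, ρ, hρ⟩ := isIrr_isCharacter χ.2
    rw [← hρ]
    exact ρ.char_conj _ _) (fun s => Cfsg.Agent.Characters.GaloisBasic.isIntegral_apply (isIrr_isCharacter χ.2) _)
  have h1 : ∑ᶠ u ∈ pSet p G, (χ : G → ℂ) u = (χ : G → ℂ) 1 + (Nat.card A : ℂ) * α := by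
    rw [finsum_eq, ← hsum, Finset.sum_coe_sort S (fun u => (χ : G → ℂ) u)]
    have h2 : Finset.univ.filter (· ∈ pSet p G) = insert 1 S := by
      ext u
      rw [Finset.mem_insert, hmS, Finset.mem_filter]
      by_cases hu : u = 1
      · simp [hu, one_mem_pSet]
      · simp [hu]
    rw [h2, Finset.sum_insert]
    rw [hmS]
    tauto
  rw [hs] at h1
  have hd : ((charDegree (χ : G → ℂ) : ℕ) : ℂ) = (χ : G → ℂ) 1 := charDegree_cast (isIrr_isCharacter χ.2)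
  rw [← hd] at h1
  have hN0 : (Nat.card A : ℂ) ≠ 0 := by exact_mod_cast Nat.card_pos.ne'
  have h2 : α = algebraMap ℚ ℂ (((e * p ^ m - 1) * (charDegree (χ : G → ℂ) : ℤ) : ℤ) / (Nat.card A : ℚ)) := by
    rw [eq_ratCast]
    push_cast
    rw [eq_div_iff hN0]
    linear_combination -h1
  rw [h2] at hα
  obtain ⟨k, hk⟩ := IsIntegrallyClosed.isIntegral_iff.1
    ((isIntegral_algebraMap_iff (FaithfulSMul.algebraMap_injective ℚ ℂ)).1 hα)
  refine ⟨k, ?_⟩
  have hN0' : (Nat.card A : ℚ) ≠ 0 := by exact_mod_cast Nat.card_pos.ne'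
  rw [eq_div_iff hN0'] at hk
  have h3 : ((k * (Nat.card A : ℤ) : ℤ) : ℚ) = (((e * p ^ m - 1) * (charDegree (χ : G → ℂ) : ℤ) : ℤ) : ℚ) := by
    rw [← hk]
    push_cast
    rfl
  have h4 := Int.cast_injective h3
  rw [← h4, mul_comm]

/-- the sum of a permutation character over the `p`-elements -/
theorem sum_perm [Finite G] {p : ℕ} (P : Subgroup G) :
    ∑ᶠ u ∈ pSet p G, (Nat.card (MulAction.fixedBy (G ⧸ P) u) : ℂ) = (P.index * (pSet p G ∩ (P : Set G)).ncard : ℕ) := by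
  classical
  have := Fintype.ofFinite G
  have : Fintype (G ⧸ P) := Fintype.ofFinite _
  rw [finsum_eq]
  have h1 : ∀ u : G, (Nat.card (MulAction.fixedBy (G ⧸ P) u) : ℂ) = ∑ c : G ⧸ P, if u • c = c then 1 else 0 := by
    intro u
    rw [Finset.sum_boole, Nat.card_eq_fintype_card, Fintype.card_subtype]
    rfl
  rw [Finset.sum_congr rfl fun u _ => h1 u, Finset.sum_comm]
  have h2 : ∀ c : G ⧸ P, ∑ u ∈ Finset.univ.filter (· ∈ pSet p G), (if u • c = c then (1 : ℂ) else 0) =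
      ((pSet p G ∩ (P : Set G)).ncard : ℂ) := by
    intro c
    rw [← Finset.sum_filter, Finset.sum_const, nsmul_eq_mul, mul_one, Set.ncard_eq_toFinset_card']
    congr 1
    obtain ⟨g, rfl⟩ := QuotientGroup.mk_surjective c
    symm
    apply Finset.card_bij (fun u _ => g * u * g⁻¹)
    · intro u hu
      rw [Set.mem_toFinset] at hu
      rw [Finset.mem_filter, Finset.mem_filter]
      refine ⟨⟨Finset.mem_univ _, (conj_mem_pSet _ _).2 hu.1⟩, ?_⟩
      rw [MulAction.Quotient.smul_mk, QuotientGroup.eq]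
      rw [smul_eq_mul, show (g * u * g⁻¹ * g)⁻¹ * g = u⁻¹ by group]
      exact P.inv_mem hu.2
    · intro u _ v _ h
      exact (MulAut.conj g).injective h
    · intro v hv
      rw [Finset.mem_filter, Finset.mem_filter] at hv
      refine ⟨g⁻¹ * v * g, ?_, by group⟩
      rw [Set.mem_toFinset]
      refine ⟨?_, ?_⟩
      · have := (conj_mem_pSet (p := p) g⁻¹ v).2 hv.1.2
        rwa [inv_inv] at this
      · have h3 := hv.2
        rw [MulAction.Quotient.smul_mk, QuotientGroup.eq, smul_eq_mul] at h3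
        have h4 := P.inv_mem h3
        rwa [show ((v * g)⁻¹ * g)⁻¹ = g⁻¹ * v * g by group] at h4
  rw [Finset.sum_congr rfl fun c _ => h2 c, Finset.sum_const, nsmul_eq_mul, Finset.card_univ,
    ← Nat.card_eq_fintype_card, ← Subgroup.index]
  push_cast
  rfl

/-- the five values of Kawanaka's numbers at a CC subgroup of order `q ^ 4 - q ^ 2 + 1` -/
theorem kaw_values [Finite G] {p : ℕ} [hp : Fact p.Prime] (hK : Kaw p G) {A : Subgroup G} (hA : IsCC A) {q f : ℕ}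
    (hq : q = p ^ f) (hf : 0 < f) (hN : (Nat.card A : ℤ) = (q : ℤ) ^ 4 - q ^ 2 + 1)
    (hfac : (Nat.card G).factorization p = 12 * f) (χ : IrrCharacter G)
    (hcop : IsCoprime (Nat.card A : ℤ) (charDegree (χ : G → ℂ) : ℤ)) :
    ∃ e : ℤ, ∑ᶠ u ∈ pSet p G, (χ : G → ℂ) u = (e : ℂ) * (χ : G → ℂ) 1 ∧
      (e = 1 ∨ e = -(q : ℤ) ^ 6 ∨ e = (q : ℤ) ^ 12 ∨ e = -(q : ℤ) ^ 18 ∨ e = (q : ℤ) ^ 24) := by
  obtain ⟨m, e, he, hs⟩ := hK.sum χ χ.2
  obtain ⟨hm, -⟩ := hK.top hp.out χ.2 he hs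
  have hpA : ¬ p ∣ Nat.card A := by
    intro h
    have h1 : (p : ℤ) ∣ (Nat.card A : ℤ) := by exact_mod_cast h
    have h2 : (p : ℤ) ∣ (q : ℤ) := by
      have : p ∣ q := by rw [hq]; exact dvd_pow_self p hf.ne'
      exact_mod_cast this
    rw [hN] at h1
    have h3 : (p : ℤ) ∣ 1 := by
      have h4 : (1 : ℤ) = ((q : ℤ) ^ 4 - q ^ 2 + 1) - q * (q ^ 3 - q) := by ring
      rw [h4]
      exact dvd_sub h1 (Dvd.dvd.mul_right h2 _)
    have h4 : (p : ℤ) ≤ 1 := Int.le_of_dvd one_pos h3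
    have h5 := hp.out.two_le
    omega
  have h1 := hcop.dvd_of_dvd_mul_right (cong_cc hp.out hA hpA χ hs)
  refine ⟨e * p ^ m, by rw [hs]; push_cast; ring, ?_⟩
  exact five_values hp.out.two_le hf hq hN (by rw [hfac] at hm; omega) he h1

/-- **Step (4)**: the case `s₁(x) = s₂(x) = -1` is impossible. -/
theorem kill_core [Finite G] {p : ℕ} [hp : Fact p.Prime] (hK : Kaw p G) {A : Subgroup G} (hA : IsCC A) {q f : ℕ}
    (hq : q = p ^ f) (hf : 0 < f) (hN : (Nat.card A : ℤ) = (q : ℤ) ^ 4 - q ^ 2 + 1)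
    (hfac : (Nat.card G).factorization p = 12 * f) {P₁ P₂ : Subgroup G}
    (i1 : P₁.index = (q ^ 8 + q ^ 4 + 1) * (q ^ 3 + 1)) (i2 : P₂.index = (q ^ 8 + q ^ 4 + 1) * (q + 1))
    (n1 : (pSet p G ∩ (P₁ : Set G)).ncard = q ^ 13) (n2 : (pSet p G ∩ (P₂ : Set G)).ncard = q ^ 15)
    (s₁ s₂ : IrrCharacter G)
    (hd : ∀ g, (Nat.card (MulAction.fixedBy (G ⧸ P₁) g) : ℂ) - (Nat.card (MulAction.fixedBy (G ⧸ P₂) g) : ℂ) =
      (s₁ : G → ℂ) g - (s₂ : G → ℂ) g) (hle : charDegree (s₁ : G → ℂ) ≤ P₁.index)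
    (h1 : IsCoprime (Nat.card A : ℤ) (charDegree (s₁ : G → ℂ) : ℤ))
    (h2 : IsCoprime (Nat.card A : ℤ) (charDegree (s₂ : G → ℂ) : ℤ)) : False := by
  classical
  have := Fintype.ofFinite G
  have hq2 : 2 ≤ q := by
    rw [hq]
    calc 2 ≤ p := hp.out.two_le
      _ = p ^ 1 := (pow_one p).symm
      _ ≤ p ^ f := Nat.pow_le_pow_right hp.out.pos hf
  obtain ⟨e1, hs1, he1⟩ := kaw_values hK hA hq hf hN hfac s₁ h1
  obtain ⟨e2, hs2, he2⟩ := kaw_values hK hA hq hf hN hfac s₂ h2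
  have hd1 : ((charDegree (s₁ : G → ℂ) : ℕ) : ℂ) = (s₁ : G → ℂ) 1 := charDegree_cast (isIrr_isCharacter s₁.2)
  have hd2 : ((charDegree (s₂ : G → ℂ) : ℕ) : ℂ) = (s₂ : G → ℂ) 1 := charDegree_cast (isIrr_isCharacter s₂.2)
  have hone : ∀ P : Subgroup G, (Nat.card (MulAction.fixedBy (G ⧸ P) (1 : G)) : ℂ) = P.index := by
    intro P
    rw [MulAction.fixedBy_one_eq_univ, Nat.card_congr (Equiv.Set.univ _)]
    rfl
  have hsum : ∑ᶠ u ∈ pSet p G, (Nat.card (MulAction.fixedBy (G ⧸ P₁) u) : ℂ) -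
      ∑ᶠ u ∈ pSet p G, (Nat.card (MulAction.fixedBy (G ⧸ P₂) u) : ℂ) =
      ∑ᶠ u ∈ pSet p G, (s₁ : G → ℂ) u - ∑ᶠ u ∈ pSet p G, (s₂ : G → ℂ) u := by
    simp only [finsum_eq]
    rw [← Finset.sum_sub_distrib, ← Finset.sum_sub_distrib]
    exact Finset.sum_congr rfl fun u _ => hd u
  rw [sum_perm, sum_perm, hs1, hs2, ← hd1, ← hd2, n1, n2] at hsum
  have hdeg := hd 1
  rw [hone, hone, ← hd1, ← hd2] at hdeg
  have hsumZ : ((P₁.index * q ^ 13 : ℕ) : ℤ) - ((P₂.index * q ^ 15 : ℕ) : ℤ) =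
      e1 * (charDegree (s₁ : G → ℂ) : ℤ) - e2 * (charDegree (s₂ : G → ℂ) : ℤ) := by exact_mod_cast hsum
  have hdegZ : (P₁.index : ℤ) - P₂.index = (charDegree (s₁ : G → ℂ) : ℤ) - (charDegree (s₂ : G → ℂ) : ℤ) := by
    exact_mod_cast hdeg
  have hb : (1 : ℤ) ≤ (charDegree (s₂ : G → ℂ) : ℤ) := by
    have := charDegree_pos s₂
    omega
  have hleZ : (charDegree (s₁ : G → ℂ) : ℤ) ≤ (P₁.index : ℤ) := by exact_mod_cast hle
  rw [i1] at hleZ
  rw [i1, i2] at hsumZ hdegZ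
  push_cast at hsumZ hdegZ hleZ
  refine no_pair hq2 hb he1 he2 ?_ hleZ ?_
  · linear_combination -hdegZ
  · linear_combination -hsumZ - (q : ℤ) ^ 12 * hdegZ

theorem kill_a [Finite G] {p : ℕ} [hp : Fact p.Prime] (hK : Kaw p G) {A : Subgroup G} (hA : IsCC A) {q f : ℕ}
    (hq : q = p ^ f) (hf : 0 < f) (hN : (Nat.card A : ℤ) = (q : ℤ) ^ 4 - q ^ 2 + 1)
    (hfac : (Nat.card G).factorization p = 12 * f) {P₁ P₂ : Subgroup G}
    (i1 : P₁.index = (q ^ 8 + q ^ 4 + 1) * (q ^ 3 + 1)) (i2 : P₂.index = (q ^ 8 + q ^ 4 + 1) * (q + 1))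
    (n1 : (pSet p G ∩ (P₁ : Set G)).ncard = q ^ 13) (n2 : (pSet p G ∩ (P₂ : Set G)).ncard = q ^ 15)
    (s₁ s₂ : IrrCharacter G)
    (hd : ∀ g, (Nat.card (MulAction.fixedBy (G ⧸ P₁) g) : ℂ) - (Nat.card (MulAction.fixedBy (G ⧸ P₂) g) : ℂ) =
      (s₁ : G → ℂ) g - (s₂ : G → ℂ) g) (hle : charDegree (s₁ : G → ℂ) ≤ P₁.index)
    [Fintype (IrrCharacter G)] {s k : ℕ} (D : Cfsg.Agent.H678.CCExact.CCData A s k) {x : G} (hx : x ∈ A) (hx1 : x ≠ 1)
    (hr1 : s₁ ∉ D.R) (hr2 : s₂ ∉ D.R)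
    (h1 : (s₁ : G → ℂ) x = -1) (h2 : (s₂ : G → ℂ) x = -1) : False := by
  have key : ∀ χ : IrrCharacter G, χ ∉ D.R → (χ : G → ℂ) x = -1 →
      IsCoprime (Nat.card A : ℤ) (charDegree (χ : G → ℂ) : ℤ) := by
    intro χ hχ hx'
    have h3 := D.hf χ hχ x hx hx1
    rw [hx'] at h3
    have h4 : D.f χ = -1 := by exact_mod_cast h3.symm
    obtain ⟨c, hc⟩ := D.dvd χ hχ
    rw [h4] at hc
    exact ⟨c, -1, by linear_combination -hc⟩
  exact kill_core hK hA hq hf hN hfac i1 i2 n1 n2 s₁ s₂ hd hle (key s₁ hr1 h1) (key s₂ hr2 h2)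

end Cfsg.Agent.H877.TW
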